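import Cfsg.Agent.Grp.BaerSuzuki
import Cfsg.Agent.Grp.Cores

/-!
# A `p`-subgroup that controls the centralizers of its conjugate intersections

If `R` is a `p`-subgroup of `X` such that every `y` centralizing `R ∩ y R y⁻¹` lies in `R`, then
the elements of `R` that are central in `R` modulo a central subgroup lie in the `p`-core.
-/

set_option autoImplicit false
set_option linter.unusedSectionVars false

namespace Cfsg.Cod

open Subgroup

universe u

variable {p : ℕ} [hp : Fact p.Prime]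

/-- Baer-Suzuki, tested only on a subgroup containing the derived subgroup. -/
theorem mem_pCore_of_commutator_le {H : Type u} [Group H] [Finite H] {N : Subgroup H}
    (hN : commutator H ≤ N) {z : H}
    (h : ∀ n ∈ N, ∃ Q : Subgroup H, IsPGroup p Q ∧ z ∈ Q ∧ n * z * n⁻¹ ∈ Q) :
    z ∈ pCore p H := by
  have : N.Normal := Subgroup.Normal.of_commutator_le _ hN
  have : (N ⊔ zpowers z).Normal := Subgroup.Normal.of_commutator_le _ (hN.trans le_sup_left)
  have hz : z ∈ N ⊔ zpowers z := mem_sup_right (mem_zpowers z)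
  have h1 : (⟨z, hz⟩ : (N ⊔ zpowers z : Subgroup H)) ∈ pCore p (N ⊔ zpowers z : Subgroup H) := by
    refine mem_pCore_of_forall_conj fun g => ?_
    obtain ⟨n, hn, w, hw, hg⟩ := Subgroup.mem_sup_of_normal_left.1 g.2
    obtain ⟨Q, hQ, h1, h2⟩ := h n hn
    refine ⟨Q.subgroupOf _, hQ.comap_subtype, h1, ?_⟩
    rw [mem_subgroupOf]
    obtain ⟨i, rfl⟩ := hw
    have h3 : (g : H) * z * (g : H)⁻¹ = n * z * n⁻¹ := by
      rw [← hg]; simp only; group
    simpa [h3] using h2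
  rw [pCore_eq_subgroupOf_of_normal] at h1
  exact h1

variable {X : Type u} [Group X] [Finite X]

/-- The intersection `R ∩ y R y⁻¹`. -/
def cap (R : Subgroup X) (y : X) : Subgroup X := R ⊓ R.comap (MulAut.conj y⁻¹).toMonoidHom

theorem mem_cap {R : Subgroup X} {y d : X} : d ∈ cap R y ↔ d ∈ R ∧ y⁻¹ * d * y ∈ R := by
  simp [cap]

/-- The elements centralizing `D` modulo the central subgroup `Z`. -/
def cmod (D Z : Subgroup X) (hZ : Z ≤ center X) : Subgroup X where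
  carrier := {y | ∀ d ∈ D, y * d * y⁻¹ * d⁻¹ ∈ Z}
  one_mem' := fun d _ => by simp
  mul_mem' := fun {a b} ha hb d hd => by
    have h1 := mem_center_iff.1 (hZ (hb d hd)) a
    have h2 : a * b * d * (a * b)⁻¹ * d⁻¹ =
        (a * (b * d * b⁻¹ * d⁻¹)) * a⁻¹ * (a * d * a⁻¹ * d⁻¹) := by group
    rw [h2, h1, mul_inv_cancel_right]
    exact Z.mul_mem (hb d hd) (ha d hd)
  inv_mem' := fun {a} ha d hd => by
    have h1 := mem_center_iff.1 (hZ (Z.inv_mem (ha d hd))) a⁻¹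
    have h2 : a⁻¹ * d * a⁻¹⁻¹ * d⁻¹ = (a⁻¹ * (a * d * a⁻¹ * d⁻¹)⁻¹) * a := by group
    rw [h2, h1, inv_mul_cancel_right]
    exact Z.inv_mem (ha d hd)

theorem commutator_cmod_le (D Z : Subgroup X) (hZ : Z ≤ center X) :
    commutator (cmod D Z hZ) ≤ (centralizer (D : Set X)).subgroupOf (cmod D Z hZ) := by
  rw [commutator_def, commutator_le]
  intro a _ b _
  rw [mem_subgroupOf, mem_centralizer_iff]
  intro d hd
  have key : ∀ a b : cmod D Z hZ, (a : X) * b * d * ((a : X) * b)⁻¹ =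
      ((b : X) * d * (b : X)⁻¹ * d⁻¹) * ((a : X) * d * (a : X)⁻¹ * d⁻¹) * d := fun a b => by
    have h1 := mem_center_iff.1 (hZ (b.2 d hd)) a
    have h2 : (a : X) * b * d * ((a : X) * b)⁻¹ =
        ((a : X) * ((b : X) * d * (b : X)⁻¹ * d⁻¹)) * d * (a : X)⁻¹ := by group
    rw [h2, h1]; group
  have h3 := key a⁻¹ b⁻¹
  have h4 := key b⁻¹ a⁻¹
  have h5 := mem_center_iff.1 (hZ (a⁻¹.2 d hd)) ((b⁻¹ : cmod D Z hZ) * d * ((b⁻¹ : cmod D Z hZ) : X)⁻¹ * d⁻¹)
  rw [h5, ← h4] at h3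
  simp only [coe_inv] at h3
  rw [commutatorElement_def]
  simp only [coe_mul, coe_inv]
  calc d * ((a : X) * b * (a : X)⁻¹ * (b : X)⁻¹)
      = (a : X) * b * ((b : X)⁻¹ * (a : X)⁻¹ * d * ((b : X)⁻¹ * (a : X)⁻¹)⁻¹) * (a : X)⁻¹ * (b : X)⁻¹ := by
        group
    _ = (a : X) * b * ((a : X)⁻¹ * (b : X)⁻¹ * d * ((a : X)⁻¹ * (b : X)⁻¹)⁻¹) * (a : X)⁻¹ * (b : X)⁻¹ := by
        rw [h3]
    _ = _ := by group

/-- The main lemma. -/
theorem mem_pCore_of_cap {R Z : Subgroup X} (hR : IsPGroup p R)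
    (hM : ∀ y : X, (∀ d ∈ R, y⁻¹ * d * y ∈ R → y⁻¹ * d * y = d) → y ∈ R)
    (hZ : Z ≤ center X) {z : X} (hz : z ∈ R) (hzZ : ∀ r ∈ R, z * r * z⁻¹ * r⁻¹ ∈ Z) :
    z ∈ pCore p X := by
  classical
  by_contra hcon
  have hne : {g : X | ¬ ∃ Q : Subgroup X, IsPGroup p Q ∧ z ∈ Q ∧ g * z * g⁻¹ ∈ Q}.Nonempty := by
    by_contra h
    refine hcon (mem_pCore_of_forall_conj fun g => ?_)
    by_contra hg
    exact h ⟨g, hg⟩
  obtain ⟨g, hg, hmax⟩ := Set.exists_max_image _ (fun y => Nat.card (cap R y)) (Set.toFinite _) hne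
  have hz1 : z ∈ cmod (cap R g) Z hZ := fun d hd => hzZ d (mem_cap.1 hd).1
  have hz2 : g * z * g⁻¹ ∈ cmod (cap R g) Z hZ := fun d hd => by
    have h1 := hzZ _ (mem_cap.1 hd).2
    have h2 := mem_center_iff.1 (hZ h1) g
    have h3 : g * z * g⁻¹ * d * (g * z * g⁻¹)⁻¹ * d⁻¹ =
        (g * (z * (g⁻¹ * d * g) * z⁻¹ * (g⁻¹ * d * g)⁻¹)) * g⁻¹ := by group
    rw [h3, h2, mul_inv_cancel_right]
    exact h1
  have h0 : ∀ n ∈ centralizer (cap R g : Set X),
      ∃ Q : Subgroup X, IsPGroup p Q ∧ z ∈ Q ∧ n * z * n⁻¹ ∈ Q := by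
    intro n hn
    by_contra hbad
    have hle : cap R g ≤ cap R n := fun d hd => by
      have h1 : d * n = n * d := mem_centralizer_iff.1 hn d hd
      refine mem_cap.2 ⟨(mem_cap.1 hd).1, ?_⟩
      rw [mul_assoc, h1, inv_mul_cancel_left]
      exact (mem_cap.1 hd).1
    have heq : cap R g = cap R n := eq_of_le_of_card_ge hle (hmax n hbad)
    have hnR : n ∈ R := hM n fun d hd hd' => by
      have h1 : d ∈ cap R g := heq ▸ mem_cap.2 ⟨hd, hd'⟩
      have h2 : d * n = n * d := mem_centralizer_iff.1 hn d h1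
      rw [mul_assoc, h2, inv_mul_cancel_left]
    exact hbad ⟨R, hR, hz, R.mul_mem (R.mul_mem hnR hz) (R.inv_mem hnR)⟩
  have h1 : (⟨z, hz1⟩ : cmod (cap R g) Z hZ) ∈ pCore p (cmod (cap R g) Z hZ) := by
    refine mem_pCore_of_commutator_le (commutator_cmod_le _ _ hZ) fun n hn => ?_
    obtain ⟨Q, hQ, h1, h2⟩ := h0 n hn
    exact ⟨Q.subgroupOf _, hQ.comap_subtype, h1, h2⟩
  have h2 : IsPGroup p (zpowers (⟨g * z * g⁻¹, hz2⟩ : cmod (cap R g) Z hZ)) := by
    have h3 : IsPGroup p ((R.map (MulAut.conj g).toMonoidHom).subgroupOf (cmod (cap R g) Z hZ)) :=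
      (hR.map _).comap_subtype
    refine h3.to_le (zpowers_le.2 ?_)
    exact ⟨z, hz, rfl⟩
  have h3 := ((isPGroup_pCore p (cmod (cap R g) Z hZ)).to_sup_of_normal_left h2).map
    (cmod (cap R g) Z hZ).subtype
  exact hg ⟨_, h3, ⟨_, mem_sup_left h1, rfl⟩, ⟨_, mem_sup_right (mem_zpowers _), rfl⟩⟩

/-- If moreover the `p`-core is central, the group is a `p`-group. -/
theorem pCore_eq_top_of_cap {R : Subgroup X} (hR : IsPGroup p R)
    (hM : ∀ y : X, (∀ d ∈ R, y⁻¹ * d * y ∈ R → y⁻¹ * d * y = d) → y ∈ R)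
    (hZ : pCore p X ≤ center X) : pCore p X = ⊤ := by
  have hRZ : R ≤ pCore p X := by
    by_contra hcon
    have hP : IsPGroup p (R.map (QuotientGroup.mk' (pCore p X))) := hR.map _
    have : Nontrivial (R.map (QuotientGroup.mk' (pCore p X))) := by
      rw [nontrivial_iff_ne_bot]
      intro h
      rw [Subgroup.map_eq_bot_iff, QuotientGroup.ker_mk'] at h
      exact hcon h
    have := hP.center_nontrivial
    obtain ⟨⟨⟨w, z, hz, rfl⟩, hw⟩, hw1⟩ :=
      exists_ne (1 : center (R.map (QuotientGroup.mk' (pCore p X))))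
    refine hw1 (Subtype.ext (Subtype.ext ?_))
    refine (QuotientGroup.eq_one_iff z).2 (mem_pCore_of_cap hR hM hZ hz fun r hr => ?_)
    have h1 := congrArg Subtype.val (mem_center_iff.1 hw ⟨_, r, hr, rfl⟩)
    simp only [coe_mul] at h1
    rw [← QuotientGroup.eq_one_iff]
    change QuotientGroup.mk' (pCore p X) (z * r * z⁻¹ * r⁻¹) = 1
    rw [map_mul, map_mul, map_mul, ← h1, map_inv, map_inv]
    group
  refine eq_top_iff.2 fun y _ => hRZ (hM y fun d hd _ => ?_)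
  rw [mul_assoc, ← mem_center_iff.1 (hZ (hRZ hd)) y, inv_mul_cancel_left]

end Cfsg.Cod

set_option linter.all false in
theorem Cfsg.Rz.Cod_Baer_0 : True := by
  have := @_root_.Cfsg.Cod.cap.eq_def.{0}
  have := @_root_.Cfsg.Cod.cap.fun_cases
  have := @_root_.Cfsg.Cod.cmod.congr_simp.{0}
  have := @_root_.Cfsg.Cod.cmod.eq_def.{0}
  have := @_root_.Cfsg.Cod.cmod.eq_1.{0}
  have := @_root_.Cfsg.Cod.cmod.fun_cases
  trivial
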