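import Cfsg.Agent.Cod.Baer
import Cfsg.Agent.Char.Mackey
import Cfsg.Agent.Char.Codeg
import Cfsg.Agent.Char.Extend

/-!
# Irreducible characters of prime power codegree
-/

set_option autoImplicit false
set_option linter.unusedSectionVars false

namespace Cfsg.Cod

open Subgroup

universe u

variable {G : Type u} [Group G] [Finite G]

/-- Mackey's criterion: if `θ ^ G` is irreducible, an element centralizing `R ∩ y R y⁻¹` lies
in `R`. -/
theorem mem_of_isIrr_ind {R : Subgroup G} {θ : R → ℂ} (hθ : IsCharacter R θ)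
    (h : IsIrrCharacter G (ind R.subtype θ)) (y : G)
    (hy : ∀ d ∈ R, y⁻¹ * d * y ∈ R → y⁻¹ * d * y = d) : y ∈ R := by
  classical
  have := Fintype.ofFinite G
  by_contra hyR
  have h0 : θ ≠ 0 := by
    rintro rfl
    exact IrrCharacter.ne_zero ⟨_, h⟩ (ind_zero _)
  have h1 : ip (ind R.subtype θ ∘ R.subtype) θ = 1 := by
    rw [← ip_ind_right _ _ (ind_isClassFunction _ _)]
    exact IrrCharacter.ip_self ⟨_, h⟩
  set n : G → ℕ := fun x => ipNat (θ ∘ mackeyHom R R x) (θ ∘ (mackeySub R R x).subtype) with hn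
  have h2 : ∑ x : G, Nat.card (mackeySub R R x) * n x = Nat.card R * Nat.card R := by
    have hc : (Nat.card R : ℂ) ≠ 0 := natCard_cast_ne_zero R
    rw [ind_comp_subtype_eq_sum R R hθ.isClassFunction, ip_sum_left] at h1
    have h3 : ∑ x : G, (Nat.card (mackeySub R R x) : ℂ) / (Nat.card R * Nat.card R) * n x = 1 := by
      rw [← h1]
      refine Finset.sum_congr rfl fun x _ => ?_
      rw [ip_smul_left, ip_ind_left _ _ hθ.isClassFunction, hn,
        (hθ.comp _).ipNat_cast (hθ.comp _)]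
    have h4 : ((∑ x : G, Nat.card (mackeySub R R x) * n x : ℕ) : ℂ) =
        ((Nat.card R * Nat.card R : ℕ) : ℂ) := by
      push_cast
      rw [← mul_one ((Nat.card R : ℂ) * Nat.card R), ← h3, Finset.mul_sum]
      refine Finset.sum_congr rfl fun x _ => ?_
      field_simp
    exact_mod_cast h4
  have h3 : ∀ x : G, θ ∘ mackeyHom R R x = θ ∘ (mackeySub R R x).subtype → 0 < n x := by
    intro x hx
    simp only [hn, hx]
    exact (hθ.comp _).ipNat_self_pos (hθ.comp_ne_zero h0 _)
  have h4 : ∀ x ∈ R, Nat.card R ≤ Nat.card (mackeySub R R x) * n x := by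
    intro x hx
    have h5 : mackeySub R R x = ⊤ := eq_top_iff.2 fun t _ =>
      mem_mackeySub.2 (R.mul_mem (R.mul_mem (R.inv_mem hx) t.2) hx)
    have h6 : 0 < n x := h3 x (funext fun t => by
      have h7 : mackeyHom R R x t = (⟨x, hx⟩ : R)⁻¹ * (t : R) * ⟨x, hx⟩ := Subtype.ext (by simp)
      simp only [Function.comp_apply, h7, coe_subtype]
      exact hθ.isClassFunction.apply_inv_mul_mul _ _)
    rw [h5, card_top]
    exact Nat.le_mul_of_pos_right _ h6
  have h5 : 0 < Nat.card (mackeySub R R y) * n y := Nat.mul_pos Nat.card_pos (h3 y (funext fun t => by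
    have h7 : mackeyHom R R y t = (t : R) :=
      Subtype.ext (by rw [coe_mackeyHom]; exact hy _ (t : R).2 (mem_mackeySub.1 t.2))
    simp only [Function.comp_apply, h7, coe_subtype]))
  have h6 : ∑ x ∈ insert y (Finset.univ.filter (· ∈ R)), Nat.card (mackeySub R R x) * n x ≤
      Nat.card R * Nat.card R := h2 ▸ Finset.sum_le_sum_of_subset (Finset.subset_univ _)
  rw [Finset.sum_insert (by simpa using hyR)] at h6
  have h7 : ∑ x ∈ Finset.univ.filter (· ∈ R), Nat.card R ≤
      ∑ x ∈ Finset.univ.filter (· ∈ R), Nat.card (mackeySub R R x) * n x :=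
    Finset.sum_le_sum fun x hx => h4 x (Finset.mem_filter.1 hx).2
  have h8 : (Finset.univ.filter (· ∈ R)).card = Nat.card R := by
    rw [Nat.card_eq_fintype_card, Fintype.card_subtype]
  rw [Finset.sum_const, h8, smul_eq_mul] at h7
  omega

variable {p : ℕ} [hp : Fact p.Prime]

theorem pCore_eq_top_of_card_eq (χ : IrrCharacter G) {k : ℕ}
    (h : Nat.card G = p ^ k * charDegree χ.1) (hZ : pCore p G ≤ center G) : pCore p G = ⊤ := by
  obtain ⟨P⟩ := (inferInstance : Nonempty (Sylow p G))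
  obtain ⟨θ, hθ⟩ := χ.exists_ind_sylow_eq h P
  exact pCore_eq_top_of_cap P.isPGroup' (mem_of_isIrr_ind θ.isCharacter (hθ ▸ χ.2)) hZ

/-- The hypothesis passes to normal subgroups. -/
theorem exists_card_eq_of_normal (χ : IrrCharacter G) {k : ℕ}
    (h : Nat.card G = p ^ k * charDegree χ.1) (X : Subgroup G) [X.Normal] :
    ∃ (ψ : IrrCharacter X) (j : ℕ), Nat.card X = p ^ j * charDegree ψ.1 := by
  obtain ⟨ψ, hψ⟩ := χ.exists_liesOver_below X.subtype
  have h1 := hψ.charDegree_dvd_mul_index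
  rw [range_subtype] at h1
  obtain ⟨c, hc⟩ := ψ.charDegree_dvd_card
  have h2 : c ∣ p ^ k := by
    have h3 : Nat.card G ∣ p ^ k * (charDegree ψ.1 * X.index) := h ▸ mul_dvd_mul_left _ h1
    rw [← X.card_mul_index, hc, mul_comm (charDegree ψ.1) c, mul_assoc] at h3
    exact Nat.dvd_of_mul_dvd_mul_right
      (Nat.mul_pos ψ.charDegree_pos (Nat.pos_of_ne_zero index_ne_zero_of_finite)) h3
  obtain ⟨j, -, rfl⟩ := (Nat.dvd_prime_pow hp.out).1 h2
  exact ⟨ψ, j, by rw [hc, mul_comm]⟩

theorem centralizer_pCore_le (χ : IrrCharacter G) {k : ℕ}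
    (h : Nat.card G = p ^ k * charDegree χ.1) :
    centralizer ((pCore p G : Subgroup G) : Set G) ≤ pCore p G := by
  obtain ⟨ψ, j, hψ⟩ := exists_card_eq_of_normal χ h (centralizer ((pCore p G : Subgroup G) : Set G))
  have h1 := pCore_eq_top_of_card_eq ψ hψ (by
    rw [pCore_eq_subgroupOf_of_normal]
    intro z hz
    exact mem_center_iff.2 fun x => Subtype.ext (mem_centralizer_iff.1 x.2 _ hz).symm)
  rw [pCore_eq_subgroupOf_of_normal, subgroupOf_eq_top] at h1
  exact h1

theorem pPrimeCore_eq_bot (χ : IrrCharacter G) {k : ℕ}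
    (h : Nat.card G = p ^ k * charDegree χ.1) : pPrimeCore p G = ⊥ := by
  rw [← pCore_inf_pPrimeCore (p := p) (G := G)]
  exact (inf_eq_right.2 (pPrimeCore_le_centralizer_pCore.trans (centralizer_pCore_le χ h))).symm

end Cfsg.Cod
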